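import Cfsg.Agent.Lib.H04.Long.Top
import Cfsg.Agent.Lib.H04.Chev.Coxeter
import Cfsg.Agent.Lib.H04.Chev.TorusCard
import Cfsg.Agent.Lib.H04.Tf.Char2

/-!
# Centralizers of root elements that are centralised by the positive root subgroups
-/

set_option autoImplicit false
set_option linter.style.longLine false
set_option linter.unusedSimpArgs false
set_option linter.unusedSectionVars false
set_option linter.unusedVariables false

open Cfsg.Lie Cfsg.Agent.H04.Chev

namespace Cfsg.Agent.H04.Long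

variable {D : ChevalleyDatum} {T : Tabs} {U : Tabs3}

/-- table facts for the centralizer of the root element of `r`: all fundamental roots but one
fix `r`, and `r - p` is a root for the last one `p`. -/
structure CentData (D : ChevalleyDatum) (T : Tabs) (U : Tabs3) (r istar r' : ℕ) (lenc : ℕ → ℕ) : Prop where
  hr : r < D.nroots
  hr0 : D.nroots / 2 ≤ r
  hi : istar < D.rank
  hw : ∀ i, i < D.rank → ∀ s, s < D.nroots → lenc (T.w (D.simple i) s) = lenc s
  htop : ∀ c, c < D.nroots → lenc c = lenc r → ellOf U D (fun _ => 1) c ≤ ellOf U D (fun _ => 1) r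
  hr' : r' < D.nroots
  hlr' : lenc r' = lenc r
  hcof : ∀ j, j < D.rank → U.cofI r' j = U.cofI r j - if j = istar then 1 else 0
  hfix : ∀ i, i < D.rank → i ≠ istar → T.w (D.simple i) r = r
  hcar : ∀ i, i < D.rank → i ≠ istar → D.cartan i r = 0
  hcari : D.cartan istar r = 1
  xinj : ∀ s, s < D.nroots → s ≠ r → ∀ y ∈ T.P.col s (negF D r), y.row ≠ r

section
variable (C : Checks D T) (C2 : Checks2 D T) (C3 : Checks3 D T U)
variable {K : Type*} [Field K]
variable {r istar r' : ℕ} {lenc : ℕ → ℕ} (A : CentData D T U r istar r' lenc)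

include A in
omit C2 C3 in
lemma lenc_W {w : Equiv.Perm (Fin D.nroots)} (hw : w ∈ WW C) (s : Fin D.nroots) : lenc (w s) = lenc s := by
  unfold WW WJ at hw
  induction hw using Subgroup.closure_induction generalizing s with
  | mem x hx =>
    obtain ⟨i, hi, rfl⟩ := hx
    rw [wPn_apply C hi]
    exact A.hw i hi s s.2
  | one => rfl
  | mul x y _ _ hx hy => rw [Equiv.Perm.mul_apply, hx, hy]
  | inv x _ hx =>
    have := hx (x⁻¹ s)
    have e : x (x⁻¹ s) = s := by rw [← Equiv.Perm.mul_apply, mul_inv_cancel]; rfl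
    rw [e] at this
    exact this.symm

include C2 C3 A in
/-- an element of the Weyl group fixing `r` keeps the last fundamental root positive -/
lemma simple_pos_of_fix {w : Equiv.Perm (Fin D.nroots)} (hw : w ∈ WW C) (hfix : w ⟨r, A.hr⟩ = ⟨r, A.hr⟩) :
    D.nroots / 2 ≤ (w ⟨D.simple istar, C.simple_lt _ A.hi⟩).1 := by
  by_contra hneg
  push Not at hneg
  have hp := C.simple_lt _ A.hi
  set q : Fin D.nroots := w ⟨D.simple istar, hp⟩ with hq
  have hstar : istar ∈ Finset.range D.rank := Finset.mem_range.mpr A.hi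
  have h1 : ∀ j, j < D.rank → U.cofI (w ⟨r', A.hr'⟩) j = U.cofI r j - U.cofI q j := by
    intro j hj
    have e1 := cof_perm_linear C C3 hw ⟨r', A.hr'⟩ hj
    have e2 := cof_perm_linear C C3 hw ⟨r, A.hr⟩ hj
    rw [hfix] at e2
    simp only at e1 e2
    rw [e1, e2]
    have e3 : ∑ i ∈ Finset.range D.rank, U.cofI r' i * U.cofI (piOf w (D.simple i)) j =
        ∑ i ∈ Finset.range D.rank, (U.cofI r i * U.cofI (piOf w (D.simple i)) j - if i = istar then U.cofI (piOf w (D.simple i)) j else 0) := by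
      apply Finset.sum_congr rfl
      intro i hi
      rw [A.hcof i (Finset.mem_range.mp hi)]
      split_ifs <;> ring
    rw [e3, Finset.sum_sub_distrib, Finset.sum_ite_eq' _ _ _, if_pos hstar, hq]
    congr 2
    exact piOf_apply w ⟨_, hp⟩
  have hq' : D.nroots / 2 ≤ negF D q.1 := negF_pos C2 hneg
  have hq1 : negF D q.1 < D.nroots := negF_lt q.2
  have h2 : 0 < ellOf U D (fun _ => 1) (negF D q.1) := by
    obtain ⟨j, hj, hne⟩ := exists_cof_ne C C2 C3 hq' hq1
    unfold ellOf
    apply Finset.sum_pos'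
    · intro i hi
      have := C3.cof_pos _ hq' hq1 i (Finset.mem_range.mp hi)
      simpa using this
    · refine ⟨j, Finset.mem_range.mpr hj, ?_⟩
      have := C3.cof_pos _ hq' hq1 j hj
      simp only [one_mul]
      omega
  rw [ellOf_neg C3 _ q.2] at h2
  have h3 : ellOf U D (fun _ => 1) (w ⟨r', A.hr'⟩) = ellOf U D (fun _ => 1) r - ellOf U D (fun _ => 1) q := by
    unfold ellOf
    rw [← Finset.sum_sub_distrib]
    apply Finset.sum_congr rfl
    intro j hj
    rw [h1 j (Finset.mem_range.mp hj)]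
    ring
  have h4 := A.htop _ (w ⟨r', A.hr'⟩).2 (by rw [lenc_W C A hw]; exact A.hlr')
  omega

include C2 C3 in
/-- an element of the Weyl group keeping the fundamental roots positive keeps all positive roots positive -/
lemma pos_of_simple_pos {w : Equiv.Perm (Fin D.nroots)} (hw : w ∈ WW C)
    (hall : ∀ i, ∀ hi : i < D.rank, D.nroots / 2 ≤ (w ⟨D.simple i, C.simple_lt i hi⟩).1) (s : Fin D.nroots) (hs : D.nroots / 2 ≤ s.1) :
    D.nroots / 2 ≤ (w s).1 := by
  apply pos_of_nonneg C C2 C3 (w s).2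
  intro j hj
  rw [cof_perm_linear C C3 hw s hj]
  apply Finset.sum_nonneg
  intro i hi
  have hi' := Finset.mem_range.mp hi
  have e := piOf_apply w ⟨_, C.simple_lt i hi'⟩
  simp only at e
  rw [e]
  exact mul_nonneg (C3.cof_pos _ hs s.2 i hi') (C3.cof_pos _ (hall i hi') (Fin.isLt _) j hj)

include C2 C3 A in
/-- the factorisation of the monomial elements fixing `r` -/
lemma N_factor {Z : Subgroup (GL D.Idx K)} (hZn : ∀ i, i < D.rank → i ≠ istar → nG C (D.simple i) (1 : K) ∈ Z) :
    ∀ k, ∀ w ∈ WW C, invP w = k → ∀ n ∈ D.monomialSubgroup K, ∀ (π π' : ℕ → ℕ) (d : ℕ → Kˣ), NAct C n π π' d →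
      (∀ s : Fin D.nroots, ((w s : Fin D.nroots) : ℕ) = π s) → π r = r → ∃ h ∈ D.diagonalSubgroup K, ∃ z ∈ Z, n = h * z := by
  intro k
  induction k using Nat.strong_induction_on with
  | _ k ih =>
    intro w hw hk n hn π π' d ha hπ hfix
    by_cases hall : ∀ i, ∀ hi : i < D.rank, D.nroots / 2 ≤ (w ⟨D.simple i, C.simple_lt i hi⟩).1
    · refine ⟨n, mem_H_of_pos C C2 C3 hn ha ?_, 1, one_mem _, (mul_one n).symm⟩
      intro s h0 h1
      rw [← hπ ⟨s, h1⟩]
      exact pos_of_simple_pos C C2 C3 hw hall ⟨s, h1⟩ h0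
    · push Not at hall
      obtain ⟨i, hi, hneg⟩ := hall
      have hw' : w ⟨r, A.hr⟩ = ⟨r, A.hr⟩ := Fin.ext (by rw [hπ]; exact hfix)
      have hi' : i ≠ istar := by
        intro e
        subst e
        have := simple_pos_of_fix C C2 C3 A hw hw'
        omega
      have hlen := invP_right_neg C C2 C3 hi hw hneg
      have hmem : wPn C i ∈ WW C := Subgroup.subset_closure ⟨i, hi, rfl⟩
      have a' := ha.mul (NAct_simple (F := K) C hi)
      obtain ⟨h, hh, z, hz, e⟩ := ih _ (by omega) (w * wPn C i) (mul_mem hw hmem) rfl (n * nG C (D.simple i) 1)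
        (mul_mem hn (nG_mem_monomial C (C.simple_lt i hi))) _ _ _ a' (by
          intro s
          rw [Equiv.Perm.mul_apply, hπ]
          simp only [Function.comp]
          rw [wPn_apply C hi]) (by
          simp only [Function.comp]
          rw [A.hfix i hi hi', hfix])
      refine ⟨h, hh, z * (nG C (D.simple i) 1)⁻¹, mul_mem hz (inv_mem (hZn i hi hi')), ?_⟩
      rw [← mul_assoc, ← e]
      group

omit C3 in
include C2 in
/-- the positive root subgroups centralise the root group of `r` -/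
lemma U_central {r : ℕ} (hU : ∀ s, D.nroots / 2 ≤ s → s < D.nroots → ∀ t a : K, xG C s t * xG C r a = xG C r a * xG C s t)
    {u : GL D.Idx K} (hu : u ∈ D.posUnipotent K) (a : K) : u * xG C r a * u⁻¹ = xG C r a := by
  have hz : u ∈ Subgroup.centralizer {xG C r a} := by
    rw [pos_eq_RS C] at hu
    refine ((Subgroup.closure_le _).mpr ?_) hu
    rintro _ ⟨s, v, h1, h2, rfl⟩
    rw [SetLike.mem_coe, Subgroup.mem_centralizer_iff]
    intro w hw
    rw [Set.mem_singleton_iff] at hw
    subst hw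
    have hs := (C2.pos_iff s).mp h2
    exact (hU s hs.1 h1 v a).symm
  rw [Subgroup.mem_centralizer_iff] at hz
  have := hz _ rfl
  rw [← this]
  group

include C C2 C3 in
/-- the Borel subgroup acts on the root group of `r` by scalars -/
lemma borel_conj {r : ℕ} (hr : r < D.nroots) (hU : ∀ s, D.nroots / 2 ≤ s → s < D.nroots → ∀ t a : K, xG C s t * xG C r a = xG C r a * xG C s t)
    {b : GL D.Idx K} (hb : b ∈ D.borelSubgroup K) (a : K) : ∃ v : Kˣ, b * xG C r a * b⁻¹ = xG C r (v * a) := by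
  obtain ⟨u, hu, k, hk, rfl⟩ := (mem_borel_iff C C2 C3).mp hb
  rw [diagonal_eq C C3] at hk
  obtain ⟨c, rfl⟩ := mem_HT.mp hk
  refine ⟨tv U D (capply D c) r, ?_⟩
  have e := (NAct_torus (F := K) C C3 (capply D c)).conj r hr a
  calc u * hProd U D c * xG C r a * (u * hProd U D c)⁻¹ = u * (hProd U D c * xG C r a * (hProd U D c)⁻¹) * u⁻¹ := by group
    _ = u * xG C r (tv U D (capply D c) r * a) * u⁻¹ := by
        congr 2
    _ = _ := U_central C C2 hU hu _

include C3 A in
omit C2 in
lemma tv_capply_r (c : ℕ → Kˣ) : tv U D (capply D c) r = c istar := by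
  unfold capply
  have e : ∀ L : List ℕ, (∀ i ∈ L, i < D.rank) → tv U D ((L.map fun i => psiI D i (c i)).prod) r = (L.map fun i => c i ^ D.cartan i r).prod := by
    intro L hL
    induction L with
    | nil => exact tv_one r
    | cons a as ih =>
      rw [List.map_cons, List.map_cons, List.prod_cons, List.prod_cons, tv_mul, ih (fun i hi => hL i (List.mem_cons_of_mem _ hi)),
        tv_psiI C3 (hL a List.mem_cons_self) A.hr]
  rw [e _ (fun i hi => List.mem_range.mp hi)]
  have e2 : ∀ n, istar < n → n ≤ D.rank → ((List.range n).map fun i => c i ^ D.cartan i r).prod = c istar := by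
    intro n
    induction n with
    | zero => intro h; omega
    | succ n ih =>
      intro h1 h2
      rw [List.range_succ, List.map_append, List.prod_append, List.map_cons, List.map_nil, List.prod_cons, List.prod_nil, mul_one]
      by_cases h3 : n = istar
      · subst h3
        have e3 : ∀ m, m ≤ n → ((List.range m).map fun i => c i ^ D.cartan i r).prod = 1 := by
          intro m
          induction m with
          | zero => intro _; rfl
          | succ m ihm =>
            intro hm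
            rw [List.range_succ, List.map_append, List.prod_append, List.map_cons, List.map_nil, List.prod_cons, List.prod_nil, mul_one,
              ihm (by omega), A.hcar m (by omega) (by omega), zpow_zero, one_mul]
        rw [e3 n le_rfl, A.hcari, zpow_one, one_mul]
      · rw [ih (by omega) (by omega), A.hcar n (by omega) h3, zpow_zero, mul_one]
  exact e2 _ A.hi le_rfl

include C3 A in
omit C2 in
lemma hProd_mem {Z : Subgroup (GL D.Idx K)} (hZn : ∀ i, i < D.rank → i ≠ istar → ∀ t : K, nG C (D.simple i) t ∈ Z) {c : ℕ → Kˣ} (hc : c istar = 1) :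
    hProd U D c ∈ Z := by
  rw [hProd_eq C C3]
  apply Subgroup.list_prod_mem
  intro g hg
  obtain ⟨i, hi, rfl⟩ := List.mem_map.mp hg
  have hi' := List.mem_range.mp hi
  by_cases e : i = istar
  · subst e
    rw [hc, Units.val_one, hG_one C (C.simple_lt i hi')]
    exact one_mem _
  · rw [hG_eq]
    exact mul_mem (hZn i hi' e _) (hZn i hi' e _)

include C C2 C3 A in
/-- **The centralizer of a root element centralised by the positive root subgroups.** -/
theorem cent_main (hU : ∀ s, D.nroots / 2 ≤ s → s < D.nroots → ∀ t a : K, xG C s t * xG C r a = xG C r a * xG C s t)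
    {Z : Subgroup (GL D.Idx K)} (hZU : D.posUnipotent K ≤ Z)
    (hZJ : ∀ i, i < D.rank → i ≠ istar → ∀ t : K, xG C (negF D (D.simple i)) t ∈ Z)
    (hZ3 : Z ≤ D.group K ⊓ Subgroup.centralizer {xG C r (1 : K)}) :
    D.group K ⊓ Subgroup.centralizer {xG C r (1 : K)} = Z := by
  refine le_antisymm ?_ hZ3
  have hr := A.hr
  have hpZ : ∀ i, i < D.rank → ∀ t : K, xG C (D.simple i) t ∈ Z := by
    intro i hi t
    apply hZU
    exact xG_mem_pos C ((C2.pos_iff _).mpr ⟨C3.simple_pos i hi, C.simple_lt i hi⟩) t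
  have hZn : ∀ i, i < D.rank → i ≠ istar → ∀ t : K, nG C (D.simple i) t ∈ Z := by
    intro i hi e t
    unfold nG Cfsg.Lie.ChevalleyDatum.nWord
    simp only [wordG_cons, wordG_nil, mul_one]
    rw [show D.neg (D.simple i) = negF D (D.simple i) from C.neg _ (C.simple_lt i hi)]
    exact mul_mem (hpZ i hi t) (mul_mem (hZJ i hi e _) (hpZ i hi t))
  rintro g ⟨hg, hgc⟩
  have hcomm : ∀ x : GL D.Idx K, x ∈ Subgroup.centralizer {xG C r (1 : K)} → x * xG C r 1 * x⁻¹ = xG C r 1 := by
    intro x hx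
    rw [Subgroup.mem_centralizer_iff] at hx
    rw [← hx _ rfl]
    group
  obtain ⟨b, hb, n, hn, π₀, π₀', d₀, ha₀, u, hu, rfl⟩ := bruhat_exists C C2 C3 hg
  have huU : u ∈ D.posUnipotent K := by
    rw [pos_eq_RS C]
    refine (Subgroup.closure_mono ?_) hu
    rintro _ ⟨s, t, h1, h2, rfl⟩
    exact ⟨s, t, h1, (C2.pos_iff s).mpr ⟨h2.1, h1⟩, rfl⟩
  obtain ⟨w, hw, π, π', d, ha, hπ⟩ := monomial_le_NW C C3 hn
  have h1 := hcomm _ hgc
  have h2 := U_central C C2 hU huU (1 : K)
  -- `n y n⁻¹ = b⁻¹ y b`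
  have h3 : n * xG C r 1 * n⁻¹ = b⁻¹ * xG C r 1 * (b⁻¹)⁻¹ := by
    have e : b * n * u * xG C r 1 * (b * n * u)⁻¹ = b * (n * (u * xG C r 1 * u⁻¹) * n⁻¹) * b⁻¹ := by group
    rw [e, h2] at h1
    calc n * xG C r 1 * n⁻¹ = b⁻¹ * (b * (n * xG C r 1 * n⁻¹) * b⁻¹) * b := by group
      _ = _ := by rw [h1]; group
  obtain ⟨v, hv⟩ := borel_conj C C2 C3 hr hU (inv_mem hb) (1 : K)
  have h4 := ha.conj r hr (1 : K)
  rw [h3, hv] at h4
  -- `π r = r`
  have hfix : π r = r := by
    by_contra hne
    have hs := ha.lt r hr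
    have h5 := x_entry_neg C C2 hr ((v : K) * 1)
    rw [← xG_val C, h4, xG_val C, x_entry C hs] at h5
    have hne2 : negF D r ≠ r := negF_ne C2 hr
    have h6 : (if code D (Sum.inr (⟨negF D r, negF_lt hr⟩ : Fin D.nroots) : D.Idx) = code D (Sum.inr (⟨r, hr⟩ : Fin D.nroots) : D.Idx) then (1 : K) else 0) = 0 :=
      if_neg hne2
    rw [h6, zero_add] at h5
    have h7 : colVal ((d r : K) * 1) (T.P.col (π r) (code D (Sum.inr (⟨negF D r, negF_lt hr⟩ : Fin D.nroots) : D.Idx))) (code D (Sum.inr (⟨r, hr⟩ : Fin D.nroots) : D.Idx)) = 0 := by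
      apply colVal_eq_zero_of
      intro y hy
      exact A.xinj _ hs hne y hy
    rw [h7] at h5
    have h8 : (v : K) * 1 ≠ 0 := by simp
    exact (pow_ne_zero 2 h8) (by simpa using h5.symm)
  obtain ⟨h, hh, z, hz, rfl⟩ := N_factor C C2 C3 A (Z := Z) (fun i hi e => hZn i hi e 1) _ w hw rfl n hn π π' d ha hπ hfix
  -- the element `b h` commutes with `y`
  have hzc := (hZ3 hz).2
  have huc := (hZ3 (hZU huU)).2
  have hbh : (b * h) * xG C r 1 * (b * h)⁻¹ = xG C r 1 := by
    have e : b * (h * z) * u * xG C r 1 * (b * (h * z) * u)⁻¹ = (b * h) * (z * (u * xG C r 1 * u⁻¹) * z⁻¹) * (b * h)⁻¹ := by group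
    rw [e, hcomm u huc, hcomm z hzc] at h1
    exact h1
  have hbh' : b * h ∈ D.borelSubgroup K := mul_mem hb (H_le_B hh)
  obtain ⟨u₁, hu₁, k, hk, e₁⟩ := (mem_borel_iff C C2 C3).mp hbh'
  rw [diagonal_eq C C3] at hk
  obtain ⟨c, rfl⟩ := mem_HT.mp hk
  have huc₁ := (hZ3 (hZU hu₁)).2
  have hk1 : hProd U D c * xG C r 1 * (hProd U D c)⁻¹ = xG C r 1 := by
    rw [e₁] at hbh
    have e : u₁ * hProd U D c * xG C r 1 * (u₁ * hProd U D c)⁻¹ = u₁ * (hProd U D c * xG C r 1 * (hProd U D c)⁻¹) * u₁⁻¹ := by group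
    rw [e] at hbh
    have e2 : hProd U D c * xG C r 1 * (hProd U D c)⁻¹ = u₁⁻¹ * (u₁ * (hProd U D c * xG C r 1 * (hProd U D c)⁻¹) * u₁⁻¹) * u₁ := by group
    rw [e2, hbh]
    have := hcomm _ (inv_mem huc₁)
    rw [inv_inv] at this
    exact this
  have hcstar : c istar = 1 := by
    have e := (NAct_torus (F := K) C C3 (capply D c)).conj r hr 1
    have e3 : torusG U D (capply D c) * xG C r (1 : K) * (torusG U D (capply D c))⁻¹ = xG C r 1 := hk1
    rw [e3] at e
    have e4 := Tf.xG_param_inj C C2 hr e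
    rw [tv_capply_r C3 A] at e4
    apply Units.ext
    rw [Units.val_one]
    simpa using e4.symm
  have hkZ := hProd_mem C C3 A hZn hcstar
  have e5 : b * (h * z) * u = (u₁ * hProd U D c) * z * u := by
    rw [← e₁]
    group
  rw [e5]
  exact mul_mem (mul_mem (mul_mem (hZU hu₁) hkZ) hz) (hZU huU)

omit C3 A in
include C2 in
/-- the positive unipotent subgroup lies in the centralizer -/
lemma U_le_cent {r : ℕ} (hU : ∀ s, D.nroots / 2 ≤ s → s < D.nroots → ∀ t a : K, xG C s t * xG C r a = xG C r a * xG C s t) :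
    D.posUnipotent K ≤ D.group K ⊓ Subgroup.centralizer {xG C r (1 : K)} := by
  intro u hu
  refine Subgroup.mem_inf.mpr ⟨U_le_group C hu, ?_⟩
  rw [Subgroup.mem_centralizer_iff]
  intro y hy
  rw [Set.mem_singleton_iff] at hy
  subst hy
  have := U_central C C2 hU hu (1 : K)
  calc xG C r 1 * u = (u * xG C r 1 * u⁻¹) * u := by rw [this]
    _ = u * xG C r 1 := by group

omit C2 C3 A in
/-- a root subgroup commuting with the element lies in the centralizer -/
lemma root_le_cent {r s : ℕ} (hs : s < D.nroots) (h : ∀ t : K, xG C s t * xG C r (1 : K) = xG C r 1 * xG C s t) :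
    D.rootSubgroup K s ≤ D.group K ⊓ Subgroup.centralizer {xG C r (1 : K)} := by
  rw [root_eq C, Subgroup.closure_le]
  rintro _ ⟨t, rfl⟩
  refine Subgroup.mem_inf.mpr ⟨xG_mem_group C hs t, ?_⟩
  rw [Subgroup.mem_centralizer_iff]
  intro y hy
  rw [Set.mem_singleton_iff] at hy
  subst hy
  exact (h t).symm

end

end Cfsg.Agent.H04.Long
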