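import Cfsg.Agent.Lib.H04.Long.TopTab
import Cfsg.Agent.Lib.H04.Long.Cent
import Cfsg.Agent.Lib.H04.Chev.NXTab

/-!
# Tables for the centralizers of root elements
-/

set_option autoImplicit false
set_option maxRecDepth 100000
set_option linter.style.longLine false

open Cfsg.Lie Cfsg.Agent.H04.Chev

namespace Cfsg.Agent.H04.Long

theorem htE6 : ∀ c, c < chevE6.nroots → evC TE6.U chevE6.rank (fun _ => 1) c ≤ evC TE6.U chevE6.rank (fun _ => 1) 71 := by decide +kernel
theorem coE6 : ∀ j, j < chevE6.rank → TE6.U.cofI 70 j = TE6.U.cofI 71 j - if j = 1 then 1 else 0 := by decide +kernel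
theorem fxE6 : ∀ i, i < chevE6.rank → i ≠ 1 → TE6.T.w (chevE6.simple i) 71 = 71 := by decide +kernel
theorem caE6 : ∀ i, i < chevE6.rank → i ≠ 1 → chevE6.cartan i 71 = 0 := by decide +kernel
theorem xiE6 : ∀ s, s < chevE6.nroots → s ≠ 71 → ∀ y ∈ TE6.T.P.col s (negF chevE6 71), y.row ≠ 71 := by decide +kernel

theorem cdE6 : CentData chevE6 TE6.T TE6.U 71 1 70 (fun _ => 0) where
  hr := by decide +kernel
  hr0 := by decide +kernel
  hi := by decide +kernel
  hw := fun _ _ _ _ => rfl
  htop := by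
    intro c hc h
    rw [← evC_eq, ← evC_eq]
    exact htE6 c hc 
  hr' := by decide +kernel
  hlr' := by decide +kernel
  hcof := coE6
  hfix := fxE6
  hcar := caE6
  hcari := by decide +kernel
  xinj := xiE6

theorem htE7 : ∀ c, c < chevE7.nroots → evC TE7.U chevE7.rank (fun _ => 1) c ≤ evC TE7.U chevE7.rank (fun _ => 1) 125 := by decide +kernel
theorem coE7 : ∀ j, j < chevE7.rank → TE7.U.cofI 124 j = TE7.U.cofI 125 j - if j = 0 then 1 else 0 := by decide +kernel
theorem fxE7 : ∀ i, i < chevE7.rank → i ≠ 0 → TE7.T.w (chevE7.simple i) 125 = 125 := by decide +kernel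
theorem caE7 : ∀ i, i < chevE7.rank → i ≠ 0 → chevE7.cartan i 125 = 0 := by decide +kernel
theorem xiE7 : ∀ s, s < chevE7.nroots → s ≠ 125 → ∀ y ∈ TE7.T.P.col s (negF chevE7 125), y.row ≠ 125 := by decide +kernel

theorem cdE7 : CentData chevE7 TE7.T TE7.U 125 0 124 (fun _ => 0) where
  hr := by decide +kernel
  hr0 := by decide +kernel
  hi := by decide +kernel
  hw := fun _ _ _ _ => rfl
  htop := by
    intro c hc h
    rw [← evC_eq, ← evC_eq]
    exact htE7 c hc 
  hr' := by decide +kernel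
  hlr' := by decide +kernel
  hcof := coE7
  hfix := fxE7
  hcar := caE7
  hcari := by decide +kernel
  xinj := xiE7

theorem htE8 : ∀ c, c < chevE8.nroots → evC TE8.U chevE8.rank (fun _ => 1) c ≤ evC TE8.U chevE8.rank (fun _ => 1) 239 := by decide +kernel
theorem coE8 : ∀ j, j < chevE8.rank → TE8.U.cofI 238 j = TE8.U.cofI 239 j - if j = 7 then 1 else 0 := by decide +kernel
theorem fxE8 : ∀ i, i < chevE8.rank → i ≠ 7 → TE8.T.w (chevE8.simple i) 239 = 239 := by decide +kernel
theorem caE8 : ∀ i, i < chevE8.rank → i ≠ 7 → chevE8.cartan i 239 = 0 := by decide +kernel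
theorem xiE8 : ∀ s, s < chevE8.nroots → s ≠ 239 → ∀ y ∈ TE8.T.P.col s (negF chevE8 239), y.row ≠ 239 := by decide +kernel

theorem cdE8 : CentData chevE8 TE8.T TE8.U 239 7 238 (fun _ => 0) where
  hr := by decide +kernel
  hr0 := by decide +kernel
  hi := by decide +kernel
  hw := fun _ _ _ _ => rfl
  htop := by
    intro c hc h
    rw [← evC_eq, ← evC_eq]
    exact htE8 c hc 
  hr' := by decide +kernel
  hlr' := by decide +kernel
  hcof := coE8
  hfix := fxE8
  hcar := caE8
  hcari := by decide +kernel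
  xinj := xiE8

theorem htF4l : ∀ c, c < chevF4.nroots → evC TF4.U chevF4.rank (fun _ => 1) c ≤ evC TF4.U chevF4.rank (fun _ => 1) 47 := by decide +kernel
theorem coF4l : ∀ j, j < chevF4.rank → TF4.U.cofI 46 j = TF4.U.cofI 47 j - if j = 3 then 1 else 0 := by decide +kernel
theorem fxF4l : ∀ i, i < chevF4.rank → i ≠ 3 → TF4.T.w (chevF4.simple i) 47 = 47 := by decide +kernel
theorem caF4l : ∀ i, i < chevF4.rank → i ≠ 3 → chevF4.cartan i 47 = 0 := by decide +kernel
theorem xiF4l : ∀ s, s < chevF4.nroots → s ≠ 47 → ∀ y ∈ TF4.T.P.col s (negF chevF4 47), y.row ≠ 47 := by decide +kernel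

theorem cdF4l : CentData chevF4 TF4.T TF4.U 47 3 46 (fun _ => 0) where
  hr := by decide +kernel
  hr0 := by decide +kernel
  hi := by decide +kernel
  hw := fun _ _ _ _ => rfl
  htop := by
    intro c hc h
    rw [← evC_eq, ← evC_eq]
    exact htF4l c hc 
  hr' := by decide +kernel
  hlr' := by decide +kernel
  hcof := coF4l
  hfix := fxF4l
  hcar := caF4l
  hcari := by decide +kernel
  xinj := xiF4l

theorem htF4s : ∀ c, c < chevF4.nroots → (fun s => (chevF4.isLong s).toNat) c = (fun s => (chevF4.isLong s).toNat) 44 → evC TF4.U chevF4.rank (fun _ => 1) c ≤ evC TF4.U chevF4.rank (fun _ => 1) 44 := by decide +kernel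
theorem coF4s : ∀ j, j < chevF4.rank → TF4.U.cofI 40 j = TF4.U.cofI 44 j - if j = 0 then 1 else 0 := by decide +kernel
theorem fxF4s : ∀ i, i < chevF4.rank → i ≠ 0 → TF4.T.w (chevF4.simple i) 44 = 44 := by decide +kernel
theorem caF4s : ∀ i, i < chevF4.rank → i ≠ 0 → chevF4.cartan i 44 = 0 := by decide +kernel
theorem xiF4s : ∀ s, s < chevF4.nroots → s ≠ 44 → ∀ y ∈ TF4.T.P.col s (negF chevF4 44), y.row ≠ 44 := by decide +kernel

theorem cdF4s : CentData chevF4 TF4.T TF4.U 44 0 40 (fun s => (chevF4.isLong s).toNat) where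
  hr := by decide +kernel
  hr0 := by decide +kernel
  hi := by decide +kernel
  hw := fun j hj s hs => congrArg Bool.toNat (of_isLongW isLongW_F4 j hj s hs)
  htop := by
    intro c hc h
    rw [← evC_eq, ← evC_eq]
    exact htF4s c hc h
  hr' := by decide +kernel
  hlr' := by decide +kernel
  hcof := coF4s
  hfix := fxF4s
  hcar := caF4s
  hcari := by decide +kernel
  xinj := xiF4s

theorem htG2l : ∀ c, c < chevG2.nroots → evC TG2.U chevG2.rank (fun _ => 1) c ≤ evC TG2.U chevG2.rank (fun _ => 1) 11 := by decide +kernel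
theorem coG2l : ∀ j, j < chevG2.rank → TG2.U.cofI 10 j = TG2.U.cofI 11 j - if j = 1 then 1 else 0 := by decide +kernel
theorem fxG2l : ∀ i, i < chevG2.rank → i ≠ 1 → TG2.T.w (chevG2.simple i) 11 = 11 := by decide +kernel
theorem caG2l : ∀ i, i < chevG2.rank → i ≠ 1 → chevG2.cartan i 11 = 0 := by decide +kernel
theorem xiG2l : ∀ s, s < chevG2.nroots → s ≠ 11 → ∀ y ∈ TG2.T.P.col s (negF chevG2 11), y.row ≠ 11 := by decide +kernel

theorem cdG2l : CentData chevG2 TG2.T TG2.U 11 1 10 (fun _ => 0) where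
  hr := by decide +kernel
  hr0 := by decide +kernel
  hi := by decide +kernel
  hw := fun _ _ _ _ => rfl
  htop := by
    intro c hc h
    rw [← evC_eq, ← evC_eq]
    exact htG2l c hc 
  hr' := by decide +kernel
  hlr' := by decide +kernel
  hcof := coG2l
  hfix := fxG2l
  hcar := caG2l
  hcari := by decide +kernel
  xinj := xiG2l

end Cfsg.Agent.H04.Long
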