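import Cfsg.Agent.Lib.H04.Chev.Bruhat
import Cfsg.Agent.Lib.H04.Chev.BNPair
import Cfsg.Agent.Lib.H04.Chev.Grade

/-!
# Root subgroups of a highest root
-/

set_option autoImplicit false
set_option linter.style.longLine false
set_option linter.unusedSimpArgs false
set_option linter.unusedSectionVars false
set_option linter.unusedVariables false

open Cfsg.Lie Cfsg.Agent.H04.Chev

namespace Cfsg.Agent.H04.Long

variable {D : ChevalleyDatum} {T : Tabs} {U : Tabs3}

section gen
variable {G : Type*} [Group G]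

/-- a group generated by commuting involutions consists of involutions -/
lemma sq_closure {k : Set G} (hcomm : ∀ x ∈ k, ∀ y ∈ k, x * y = y * x) (hsq : ∀ x ∈ k, x * x = 1) :
    ∀ y ∈ Subgroup.closure k, y * y = 1 := by
  have h1 : Subgroup.closure k ≤ Subgroup.centralizer k := by
    rw [Subgroup.closure_le]
    intro x hx
    rw [SetLike.mem_coe, Subgroup.mem_centralizer_iff]
    intro y hy
    exact hcomm y hy x hx
  have h2 : ∀ x ∈ Subgroup.closure k, ∀ y ∈ Subgroup.closure k, x * y = y * x := by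
    intro x hx y hy
    have h3 : k ⊆ Subgroup.centralizer {x} := by
      intro z hz
      rw [SetLike.mem_coe, Subgroup.mem_centralizer_iff]
      intro w hw
      rw [Set.mem_singleton_iff] at hw
      subst hw
      exact (Subgroup.mem_centralizer_iff.mp (h1 hx) z hz).symm
    have h4 := (Subgroup.closure_le _).mpr h3 hy
    rw [Subgroup.mem_centralizer_iff] at h4
    exact h4 x rfl
  intro y hy
  induction hy using Subgroup.closure_induction with
  | mem x hx => exact hsq x hx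
  | one => simp
  | mul a b ha hb h3 h4 =>
    calc a * b * (a * b) = a * (b * a) * b := by group
      _ = a * (a * b) * b := by rw [h2 b hb a ha]
      _ = (a * a) * (b * b) := by group
      _ = 1 := by rw [h3, h4, one_mul]
  | inv a ha h3 =>
    rw [← mul_inv_rev, h3, inv_one]

end gen

section
variable (C : Checks D T) (C2 : Checks2 D T) (C3 : Checks3 D T U)
variable {K : Type*} [Field K]

omit C2 C3 in
lemma mem_root {r : ℕ} (hr : r < D.nroots) {g : GL D.Idx K} : g ∈ D.rootSubgroup K r ↔ ∃ t, g = xG C r t := by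
  constructor
  · intro hg
    unfold Cfsg.Lie.ChevalleyDatum.rootSubgroup at hg
    induction hg using Subgroup.closure_induction with
    | mem x hx =>
      obtain ⟨t, ht⟩ := hx
      exact ⟨t, Units.ext ht⟩
    | one => exact ⟨0, (xG_zero C r).symm⟩
    | mul a b _ _ h1 h2 =>
      obtain ⟨t, rfl⟩ := h1
      obtain ⟨u, rfl⟩ := h2
      exact ⟨t + u, xG_add C r t u⟩
    | inv a _ h1 =>
      obtain ⟨t, rfl⟩ := h1
      exact ⟨-t, xG_inv C r t⟩
  · rintro ⟨t, rfl⟩
    exact Subgroup.subset_closure ⟨t, rfl⟩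

omit C2 C3 in
lemma root_eq {r : ℕ} : D.rootSubgroup K r = Subgroup.closure {g | ∃ t, g = xG C r t} := by
  unfold Cfsg.Lie.ChevalleyDatum.rootSubgroup
  congr 1
  ext g
  constructor
  · rintro ⟨t, ht⟩
    exact ⟨t, Units.ext ht⟩
  · rintro ⟨t, rfl⟩
    exact ⟨t, rfl⟩

omit C2 C3 in
/-- commuting root elements -/
lemma comm_of_terms {r s : ℕ} (hr : r < D.nroots) (hs : s < D.nroots) (h1 : s ≠ r) (h2 : s ≠ negF D r) (h : D.commTerms r s = []) (t u : K) :
    xG C s u * xG C r t = xG C r t * xG C s u := by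
  have e := xG_comm C hr hs h1 h2 t u
  have e2 : D.commWord K r s t u = [] := by
    unfold Cfsg.Lie.ChevalleyDatum.commWord
    rw [h]
    rfl
  rw [e2] at e
  simpa using e

omit C2 C3 in
lemma xG_comm_self (r : ℕ) (t u : K) : xG C r u * xG C r t = xG C r t * xG C r u := by
  rw [xG_add, xG_add, add_comm]

omit C3 in
include C2 in
/-- a root with no sums is central in `U` -/
lemma U_comm {r : ℕ} (hr : r < D.nroots) (hr0 : D.nroots / 2 ≤ r)
    (htop : ∀ s, s < D.nroots → D.nroots / 2 ≤ s → s ≠ r → D.commTerms r s = []) {u : GL D.Idx K} (hu : u ∈ D.posUnipotent K) (t : K) :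
    u * xG C r t * u⁻¹ = xG C r t := by
  have hz : u ∈ Subgroup.centralizer {xG C r t} := by
    rw [pos_eq_RS C] at hu
    refine ((Subgroup.closure_le _).mpr ?_) hu
    rintro _ ⟨s, v, h1, h2, rfl⟩
    rw [SetLike.mem_coe, Subgroup.mem_centralizer_iff]
    intro w hw
    rw [Set.mem_singleton_iff] at hw
    subst hw
    have hs := (C2.pos_iff s).mp h2
    by_cases hsr : s = r
    · subst hsr
      exact (xG_comm_self C _ _ _).symm
    · have hn : s ≠ negF D r := by
        intro e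
        have := negF_neg C2 hr0 hr
        omega
      exact (comm_of_terms C hr h1 hsr hn (htop s h1 hs.1 hsr) t v).symm
  rw [Subgroup.mem_centralizer_iff] at hz
  have := hz _ rfl
  rw [← this]
  group

omit C2 C3 in
/-- conjugation with a monomial element -/
lemma map_root_N {n : GL D.Idx K} {π π' : ℕ → ℕ} {d : ℕ → Kˣ} (hn : NAct C n π π' d) {r : ℕ} (hr : r < D.nroots) :
    (D.rootSubgroup K r).map (MulAut.conj n).toMonoidHom = D.rootSubgroup K (π r) := by
  ext y
  constructor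
  · rintro ⟨g, hg, rfl⟩
    obtain ⟨t, rfl⟩ := (mem_root C hr).mp hg
    rw [mem_root C (hn.lt r hr)]
    exact ⟨_, hn.conj r hr t⟩
  · intro hy
    obtain ⟨t, rfl⟩ := (mem_root C (hn.lt r hr)).mp hy
    refine ⟨xG C r ((d r : K)⁻¹ * t), (mem_root C hr).mpr ⟨_, rfl⟩, ?_⟩
    change n * _ * n⁻¹ = _
    rw [hn.conj r hr, mul_inv_cancel_left₀ (Units.ne_zero _)]

omit C2 C3 in
/-- conjugation with a central element of the root group -/
lemma map_root_U {r : ℕ} (hr : r < D.nroots) {u : GL D.Idx K} (h : ∀ t : K, u * xG C r t * u⁻¹ = xG C r t) :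
    (D.rootSubgroup K r).map (MulAut.conj u).toMonoidHom = D.rootSubgroup K r := by
  ext y
  constructor
  · rintro ⟨g, hg, rfl⟩
    obtain ⟨t, rfl⟩ := (mem_root C hr).mp hg
    change u * _ * u⁻¹ ∈ _
    rw [h]
    exact (mem_root C hr).mpr ⟨_, rfl⟩
  · intro hy
    obtain ⟨t, rfl⟩ := (mem_root C hr).mp hy
    exact ⟨_, hy, h t⟩

include C C2 C3 in
/-- the Borel subgroup normalises the root group -/
lemma map_root_B {r : ℕ} (hr : r < D.nroots) (hr0 : D.nroots / 2 ≤ r)
    (htop : ∀ s, s < D.nroots → D.nroots / 2 ≤ s → s ≠ r → D.commTerms r s = []) {b : GL D.Idx K} (hb : b ∈ D.borelSubgroup K) :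
    (D.rootSubgroup K r).map (MulAut.conj b).toMonoidHom = D.rootSubgroup K r := by
  obtain ⟨u, hu, k, hk, rfl⟩ := (mem_borel_iff C C2 C3).mp hb
  rw [diagonal_eq C C3] at hk
  obtain ⟨c, rfl⟩ := mem_HT.mp hk
  have h1 := map_root_U C hr (fun t => U_comm C C2 hr hr0 htop hu t)
  have h2 := map_root_N C (NAct_torus (F := K) C C3 (capply D c)) hr
  have e : (MulAut.conj (u * hProd U D c)).toMonoidHom = (MulAut.conj u).toMonoidHom.comp (MulAut.conj (hProd U D c)).toMonoidHom := by
    ext x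
    simp [mul_assoc]
  rw [e, ← Subgroup.map_map]
  have h3 : (D.rootSubgroup K r).map (MulAut.conj (hProd U D c)).toMonoidHom = D.rootSubgroup K r := h2
  rw [h3, h1]

/-- powers of elements of degree at least one -/
lemma supL_pow {ℓ : ℕ → ℤ} {M : Matrix D.Idx D.Idx K} (h : SupL D ℓ 1 M) (k : ℕ) : SupL D ℓ k (M ^ k) := by
  induction k with
  | zero => exact SupL_one le_rfl
  | succ k ih =>
    rw [pow_succ]
    have := SupL.mul ih h
    simpa using this

/-- the degrees are bounded -/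
lemma exists_deg_bound (ℓ : ℕ → ℤ) : ∃ L : ℕ, ∀ i j : D.Idx, ℓ (code D i) - ℓ (code D j) < L := by
  classical
  obtain ⟨M, hM⟩ := ((Finset.univ : Finset (D.Idx × D.Idx)).image fun x => ℓ (code D x.1) - ℓ (code D x.2)).exists_le
  refine ⟨(M + 1).toNat, fun i j => ?_⟩
  have h1 := hM _ (Finset.mem_image_of_mem _ (Finset.mem_univ (i, j)))
  have h2 := Int.self_le_toNat (M + 1)
  simp only at h1
  omega

/-- elements of degree at least one have two-power order in characteristic two -/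
lemma UniL_pow [CharP K 2] (hne : Nonempty D.Idx) (ℓ : ℕ → ℤ) : ∃ L : ℕ, ∀ g ∈ UniL D ℓ K, g ^ 2 ^ L = 1 := by
  obtain ⟨L, hL⟩ := exists_deg_bound (D := D) ℓ
  refine ⟨L, fun g hg => ?_⟩
  apply Units.ext
  have h1 : SupL D ℓ 1 ((g : Matrix D.Idx D.Idx K) - 1) := hg.1
  have h2 : ((g : Matrix D.Idx D.Idx K) - 1) ^ L = 0 := by
    ext i j
    exact supL_pow h1 L i j (hL i j)
  have h3 : ((g : Matrix D.Idx D.Idx K) - 1) ^ (2 ^ L) = 0 := by
    have hle : L ≤ 2 ^ L := Nat.lt_two_pow_self.le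
    rw [← Nat.sub_add_cancel hle, pow_add, h2, mul_zero]
  have e : ((g : Matrix D.Idx D.Idx K) - 1) ^ (2 ^ L) = (g : Matrix D.Idx D.Idx K) ^ (2 ^ L) - 1 ^ (2 ^ L) :=
    sub_pow_char_pow_of_commute (p := 2) L (Commute.one_right _)
  rw [h3, one_pow] at e
  rw [Units.val_pow_eq_pow_val, Units.val_one]
  exact (sub_eq_zero.mp e.symm)

omit C2 C3 in
include C in
lemma root_le_UniL {ℓ : ℕ → ℤ} (hg : Graded D T ℓ) {r : ℕ} (hr : r < D.nroots) (hp : 0 < ℓ r) : D.rootSubgroup K r ≤ UniL D ℓ K := by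
  intro g hg'
  obtain ⟨t, rfl⟩ := (mem_root C hr).mp hg'
  exact xG_mem_UniL C hg hr hp t

include C C2 C3 in
/-- the subgroup generated by a highest root subgroup and a conjugate -/
theorem root_sup_conj [CharP K 2] {r : ℕ} (hr : r < D.nroots) (hr0 : D.nroots / 2 ≤ r)
    (htop : ∀ s, s < D.nroots → D.nroots / 2 ≤ s → s ≠ r → D.commTerms r s = [])
    (hv : ∀ s, s < D.nroots → s ≠ negF D r → ∃ v : ℕ → ℤ, 0 < ellOf U D v r ∧ 0 < ellOf U D v s) {g : GL D.Idx K} (hg : g ∈ D.group K) :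
    IsPGroup 2 ↥(D.rootSubgroup K r ⊔ (D.rootSubgroup K r).map (MulAut.conj g).toMonoidHom) ∨
    ∃ h ∈ D.group K, (D.rootSubgroup K r ⊔ (D.rootSubgroup K r).map (MulAut.conj g).toMonoidHom).map (MulAut.conj h).toMonoidHom = D.rootSubgroup K r ⊔ D.rootSubgroup K (negF D r) := by
  obtain ⟨b, hb, n, hn, π, π', d, ha, u, hu, rfl⟩ := bruhat_exists C C2 C3 hg
  have huU : u ∈ D.posUnipotent K := by
    rw [pos_eq_RS C]
    refine (Subgroup.closure_mono ?_) hu
    rintro _ ⟨s, t, h1, h2, rfl⟩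
    exact ⟨s, t, h1, (C2.pos_iff s).mpr ⟨h2.1, h1⟩, rfl⟩
  have h1 := map_root_U C hr (fun t => U_comm C C2 hr hr0 htop huU t)
  have h2 := map_root_N C ha hr
  have h3 := map_root_B C C2 C3 hr hr0 htop hb
  have e : (MulAut.conj (b * n * u)).toMonoidHom = (MulAut.conj b).toMonoidHom.comp ((MulAut.conj n).toMonoidHom.comp (MulAut.conj u).toMonoidHom) := by
    ext x
    simp [mul_assoc]
  have e2 : (D.rootSubgroup K r).map (MulAut.conj (b * n * u)).toMonoidHom = (D.rootSubgroup K (π r)).map (MulAut.conj b).toMonoidHom := by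
    rw [e, ← Subgroup.map_map, ← Subgroup.map_map, h1, h2]
  have e3 : D.rootSubgroup K r ⊔ (D.rootSubgroup K r).map (MulAut.conj (b * n * u)).toMonoidHom =
      (D.rootSubgroup K r ⊔ D.rootSubgroup K (π r)).map (MulAut.conj b).toMonoidHom := by
    rw [Subgroup.map_sup, h3, e2]
  rw [e3]
  have hs := ha.lt r hr
  by_cases hneg : π r = negF D r
  · right
    refine ⟨b⁻¹, inv_mem (B_le_group C hb), ?_⟩
    rw [Subgroup.map_map, ← hneg]
    have : (MulAut.conj b⁻¹).toMonoidHom.comp (MulAut.conj b).toMonoidHom = MonoidHom.id _ := by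
      ext x
      simp [mul_assoc]
    rw [this, Subgroup.map_id]
  · left
    obtain ⟨v, hv1, hv2⟩ := hv _ hs hneg
    have hle : D.rootSubgroup K r ⊔ D.rootSubgroup K (π r) ≤ UniL D (ellOf U D v) K :=
      sup_le (root_le_UniL C (ellOf_graded C3 v) hr hv1) (root_le_UniL C (ellOf_graded C3 v) hs hv2)
    obtain ⟨L, hL⟩ := UniL_pow (K := K) (D := D) ⟨Sum.inr ⟨r, hr⟩⟩ (ellOf U D v)
    rintro ⟨y, hy⟩
    obtain ⟨z, hz, rfl⟩ := hy
    refine ⟨L, ?_⟩
    apply Subtype.ext
    have h5 := hL z (hle hz)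
    show ((MulAut.conj b) z) ^ (2 ^ L) = 1
    rw [← map_pow, h5, map_one]

end

end Cfsg.Agent.H04.Long
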