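import Cfsg.Agent.Lib.H04.Long.Top
import Cfsg.Agent.Lib.H04.Chev.Tab.G2_all3
import Cfsg.Agent.Lib.H04.Chev.Tab.G2_all2
import Cfsg.Agent.Lib.H04.Chev.Tab.D4_all3
import Cfsg.Agent.Lib.H04.Chev.Tab.D4_all2
import Cfsg.Agent.Lib.H04.Chev.Tab.F4_all3
import Cfsg.Agent.Lib.H04.Chev.Tab.F4_all2
import Cfsg.Agent.Lib.H04.Chev.Tab.E6_all3
import Cfsg.Agent.Lib.H04.Chev.Tab.E6_all2
import Cfsg.Agent.Lib.H04.Chev.Tab.E7_all3
import Cfsg.Agent.Lib.H04.Chev.Tab.E7_all2
import Cfsg.Agent.Lib.H04.Chev.Tab.E8_all3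
import Cfsg.Agent.Lib.H04.Chev.Tab.E8_all2

/-!
# Tables on the highest roots
-/

set_option autoImplicit false
set_option maxRecDepth 100000
set_option linter.style.longLine false

open Cfsg.Lie Cfsg.Agent.H04.Chev

namespace Cfsg.Agent.H04.Long

/-- dot product of the coefficients -/
noncomputable def dotC (U : Tabs3) (l : ℕ) (r s : ℕ) : ℤ := Nat.rec 0 (fun j ih => ih + U.cofI r j * U.cofI s j) l

/-- a linear function positive on two roots which are not opposite -/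
noncomputable def certV (U : Tabs3) (l : ℕ) (r s : ℕ) (j : ℕ) : ℤ :=
  Bool.rec ((dotC U l s s - dotC U l r s) * U.cofI r j + (dotC U l r r - dotC U l r s) * U.cofI s j) (U.cofI r j) (Nat.beq s r)

/-- the value of a linear function -/
noncomputable def evC (U : Tabs3) (l : ℕ) (v : ℕ → ℤ) (c : ℕ) : ℤ := Nat.rec 0 (fun j ih => ih + v j * U.cofI c j) l

lemma evC_eq (U : Tabs3) (D : ChevalleyDatum) (v : ℕ → ℤ) (c : ℕ) : evC U D.rank v c = ellOf U D v c := by
  unfold ellOf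
  generalize D.rank = l
  induction l with
  | zero => rfl
  | succ l ih =>
    rw [Finset.sum_range_succ, ← ih]
    rfl

theorem vG2 : ∀ s, s < chevG2.nroots → s ≠ negF chevG2 11 → 0 < evC TG2.U 2 (certV TG2.U 2 11 s) 11 ∧ 0 < evC TG2.U 2 (certV TG2.U 2 11 s) s := by decide +kernel
theorem vD4 : ∀ s, s < chevD4.nroots → s ≠ negF chevD4 23 → 0 < evC TD4.U 4 (certV TD4.U 4 23 s) 23 ∧ 0 < evC TD4.U 4 (certV TD4.U 4 23 s) s := by decide +kernel
theorem vF4 : ∀ s, s < chevF4.nroots → s ≠ negF chevF4 47 → 0 < evC TF4.U 4 (certV TF4.U 4 47 s) 47 ∧ 0 < evC TF4.U 4 (certV TF4.U 4 47 s) s := by decide +kernel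
theorem vE6 : ∀ s, s < chevE6.nroots → s ≠ negF chevE6 71 → 0 < evC TE6.U 6 (certV TE6.U 6 71 s) 71 ∧ 0 < evC TE6.U 6 (certV TE6.U 6 71 s) s := by decide +kernel
theorem vE7 : ∀ s, s < chevE7.nroots → s ≠ negF chevE7 125 → 0 < evC TE7.U 7 (certV TE7.U 7 125 s) 125 ∧ 0 < evC TE7.U 7 (certV TE7.U 7 125 s) s := by decide +kernel
theorem vE8 : ∀ s, s < chevE8.nroots → s ≠ negF chevE8 239 → 0 < evC TE8.U 8 (certV TE8.U 8 239 s) 239 ∧ 0 < evC TE8.U 8 (certV TE8.U 8 239 s) s := by decide +kernel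

theorem topG2 : ∀ s, s < chevG2.nroots → chevG2.nroots / 2 ≤ s → s ≠ 11 → chevG2.commTerms 11 s = [] := by decide +kernel
theorem topD4 : ∀ s, s < chevD4.nroots → chevD4.nroots / 2 ≤ s → s ≠ 23 → chevD4.commTerms 23 s = [] := by decide +kernel
theorem topF4 : ∀ s, s < chevF4.nroots → chevF4.nroots / 2 ≤ s → s ≠ 47 → chevF4.commTerms 47 s = [] := by decide +kernel
theorem topE6 : ∀ s, s < chevE6.nroots → chevE6.nroots / 2 ≤ s → s ≠ 71 → chevE6.commTerms 71 s = [] := by decide +kernel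
theorem topE7 : ∀ s, s < chevE7.nroots → chevE7.nroots / 2 ≤ s → s ≠ 125 → chevE7.commTerms 125 s = [] := by decide +kernel
theorem topE8 : ∀ s, s < chevE8.nroots → chevE8.nroots / 2 ≤ s → s ≠ 239 → chevE8.commTerms 239 s = [] := by decide +kernel

theorem negG2 : negF chevG2 11 = 0 := by decide +kernel
theorem negD4 : negF chevD4 23 = 0 := by decide +kernel
theorem negE6 : negF chevE6 71 = 0 := by decide +kernel
theorem negE7 : negF chevE7 125 = 0 := by decide +kernel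
theorem negE8 : negF chevE8 239 = 0 := by decide +kernel

end Cfsg.Agent.H04.Long
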